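import Groth.Agent.Models.DVRGeneric2
import Groth.Agent.CurvesC.RegNormal
import Groth.Prelude.Def_Models
import Mathlib.AlgebraicGeometry.Morphisms.UniversallyOpen
import Mathlib.AlgebraicGeometry.Properties

/-!
# Flat regular schemes over a discrete valuation ring with integral generic fibre

* the generic fibre is dense; the scheme is integral; its affine rings of sections are integrally closed;
* `ϖ`-description of the generic fibre inside an affine open.
-/

set_option autoImplicit false
universe u

open CategoryTheory CategoryTheory.Limits AlgebraicGeometry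

namespace Groth.Agent.Models.H64.RegInt

variable {R : Type u} [CommRing R] [IsDomain R] [IsDiscreteValuationRing R]
  {K : Type u} [Field K] [Algebra R K] [IsFractionRing R K]
  {C X : Scheme.{u}} {f : C ⟶ Spec (CommRingCat.of K)} {g : C ⟶ X} {p : X ⟶ Spec (CommRingCat.of R)}

/-- a nonempty open of a flat scheme over a discrete valuation ring meets the generic fibre. -/
theorem exists_mem_generic (h : IsPullback g f p (Spec.map (CommRingCat.ofHom (algebraMap R K)))) [Flat p]
    (x : X) : ∃ c : C, g c ⤳ x := by
  have hg : IsOpenImmersion g := DVRGeneric.isOpenImmersion_of_isPullback h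
  have hi' := DVRGeneric.isOpenImmersion_generic R K
  have hr := DVRGeneric.opensRange_eq_of_isPullback h
  have hbot : (Spec.map (CommRingCat.ofHom (algebraMap R K))) (IsLocalRing.closedPoint K) ⤳ p x := by
    refine (PrimeSpectrum.le_iff_specializes _ _).mp ?_
    intro a ha
    have h1 : algebraMap R K a ∈ IsLocalRing.maximalIdeal K := ha
    rw [IsLocalRing.maximalIdeal_eq_bot, Ideal.mem_bot, IsFractionRing.to_map_eq_zero_iff] at h1
    rw [h1]
    exact zero_mem _
  obtain ⟨y, hy1, hy2⟩ := (Flat.generalizingMap p) hbot
  have h3 : y ∈ g.opensRange := by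
    rw [hr]
    exact ⟨_, hy2.symm⟩
  obtain ⟨c, rfl⟩ := h3
  exact ⟨c, hy1⟩

theorem denseRange (h : IsPullback g f p (Spec.map (CommRingCat.ofHom (algebraMap R K)))) [Flat p] :
    DenseRange g := by
  intro x
  obtain ⟨c, hc⟩ := exists_mem_generic h x
  exact hc.mem_closed isClosed_closure (subset_closure ⟨c, rfl⟩)

/-- A flat regular scheme over a discrete valuation ring with integral generic fibre is integral. -/
theorem isIntegral (h : IsPullback g f p (Spec.map (CommRingCat.ofHom (algebraMap R K)))) [Flat p]
    [IsIntegral C] (hreg : Models.IsRegularScheme X) : IsIntegral X := by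
  have h1 : ∀ x : X, _root_.IsReduced (X.presheaf.stalk x) := by
    intro x
    have := hreg x
    have := Groth.Agent.CurvesC.RegNormal.isDomain (X.presheaf.stalk x)
    infer_instance
  have h2 : IsReduced X := isReduced_of_isReduced_stalk X
  have h3 : IrreducibleSpace X := by
    have h4 : IsIrreducible (Set.range g) := by
      rw [← Set.image_univ]
      exact (IrreducibleSpace.isIrreducible_univ C).image g g.continuous.continuousOn
    have h5 := h4.closure
    rw [(denseRange h).closure_range] at h5
    exact { isPreirreducible_univ := h5.isPreirreducible, toNonempty := ⟨h5.nonempty.some⟩ }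
  exact isIntegral_of_irreducibleSpace_of_isReduced X

/-- sections over an affine open of an integral regular scheme are integrally closed. -/
theorem isIntegrallyClosed_sections {X : Scheme.{u}} [IsIntegral X]
    (hreg : Models.IsRegularScheme X) {U : X.Opens} (hU : IsAffineOpen U) [Nonempty U] :
    IsIntegrallyClosed Γ(X, U) := by
  refine IsIntegrallyClosed.of_localization_maximal fun P _ hP => ?_
  let z : PrimeSpectrum Γ(X, U) := ⟨P, inferInstance⟩
  let y : U := ⟨hU.fromSpec z, by
    have : hU.fromSpec z ∈ hU.fromSpec.opensRange := ⟨z, rfl⟩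
    rwa [hU.opensRange_fromSpec] at this⟩
  have hy : hU.primeIdealOf y = z := by
    apply hU.fromSpec.isOpenEmbedding.injective
    rw [hU.fromSpec_primeIdealOf]
  letI := TopCat.Presheaf.algebra_section_stalk X.presheaf y
  haveI h1 := hU.isLocalization_stalk y
  rw [hy] at h1
  haveI := hreg y.1
  haveI := Groth.Agent.CurvesC.RegNormal.isIntegrallyClosed (X.presheaf.stalk y.1)
  haveI h2 : IsLocalization.AtPrime (X.presheaf.stalk y.1) P := h1
  exact IsIntegrallyClosed.of_equiv
    (IsLocalization.algEquiv P.primeCompl (X.presheaf.stalk y.1) (Localization.AtPrime P)).toRingEquiv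

/-- the generic fibre is the basic open of a uniformizer. -/
theorem opensRange_eq_basicOpen (h : IsPullback g f p (Spec.map (CommRingCat.ofHom (algebraMap R K))))
    [IsOpenImmersion g] {ϖ : R} (hϖ : Irreducible ϖ) :
    g.opensRange = X.basicOpen (p.appTop ((Scheme.ΓSpecIso (CommRingCat.of R)).inv ϖ)) := by
  have hi' := DVRGeneric.isOpenImmersion_generic R K
  have hr := DVRGeneric.opensRange_eq_of_isPullback h
  rw [hr]
  have h1 : X.basicOpen (p.appTop ((Scheme.ΓSpecIso (CommRingCat.of R)).inv ϖ)) =
      p ⁻¹ᵁ ((Spec (CommRingCat.of R)).basicOpen ((Scheme.ΓSpecIso (CommRingCat.of R)).inv ϖ)) :=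
    (Scheme.preimage_basicOpen_top p _).symm
  rw [h1]
  congr 1
  have h4 : (Spec (CommRingCat.of R)).basicOpen ((Scheme.ΓSpecIso (CommRingCat.of R)).inv ϖ) =
      PrimeSpectrum.basicOpen ϖ := basicOpen_eq_of_affine (R := CommRingCat.of R) ϖ
  rw [h4]
  have hloc := DVRGeneric.isLocalization_away R ϖ hϖ K
  ext x
  exact Set.ext_iff.mp (PrimeSpectrum.localization_away_comap_range K ϖ) x

end Groth.Agent.Models.H64.RegInt
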