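import Groth.Agent.Fdesc.LocGenTensor
import Mathlib.RingTheory.IntegralClosure.IntegrallyClosed
import Mathlib.RingTheory.OrderOfVanishing.Basic
import Mathlib.AlgebraicGeometry.FunctionField

/-!
# Torsion invertible modules on a normal scheme trivial away from a divisor

`X` integral with integrally closed affine rings of sections, `F` a nonzero global function, `U = D(F)`,
`M` an invertible module with a generator `E` of `M^{⊗h}` and a generator `e₀` of `M|_U` such that
`e₀^{⊗h} = F^c E`.  Locally `e₀ = t e` with `t` regular and `t^h = F^c · unit`; if `h ∣ c` then `M` is trivial.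
-/

set_option autoImplicit false
universe u

open CategoryTheory CategoryTheory.Limits AlgebraicGeometry Opposite TopologicalSpace

namespace Groth.Agent.Models.H64.TorsPic

open Groth.Agent.Fdesc.LocGen

variable {X : Scheme.{u}}

theorem ores_injective [IsIntegral X] {V W : X.Opens} (h : W ≤ V) (hW : (W : Set X).Nonempty) :
    Function.Injective (ores (X := X) h) := by
  have : Nonempty W := ⟨⟨_, hW.some_mem⟩⟩
  exact map_injective_of_isIntegral X (homOfLE h)

theorem exists_affine_gen {M : X.Modules} (hM : PicF.IsInvertible M) (x : X) :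
    ∃ (V : X.Opens) (e : Γ(M, V)), x ∈ V ∧ IsAffineOpen V ∧ IsGen e := by
  obtain ⟨U, e, hx, he⟩ := (isInvertible_iff M).mp hM x
  obtain ⟨_, ⟨V, hV, rfl⟩, hxV, hVU⟩ :=
    X.isBasis_affineOpens.exists_subset_of_mem_open (show x ∈ (U : Set X) from hx) U.isOpen
  exact ⟨V, res M hVU e, hxV, hV, he.res _⟩

/-- an element of a localization of a normal domain with a power in the domain is in the domain. -/
theorem exists_of_pow {A B : Type*} [CommRing A] [IsDomain A] [IsIntegrallyClosed A] [CommRing B] [Algebra A B]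
    (S : Submonoid A) [IsLocalization S B] (hS : S ≤ nonZeroDivisors A) {t : B} {h : ℕ} (hh : 0 < h) {a : A}
    (ht : t ^ h = algebraMap A B a) : ∃ t₀ : A, algebraMap A B t₀ = t := by
  let K := FractionRing A
  let ψ : B →+* K := IsLocalization.map (M := S) (T := nonZeroDivisors A) K (RingHom.id A) hS
  have hψ : ∀ a, ψ (algebraMap A B a) = algebraMap A K a := fun a => by
    simp only [ψ, IsLocalization.map_eq, RingHom.id_apply]
  have hinj : Function.Injective (algebraMap A B) := IsLocalization.injective B hS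
  have hψinj : Function.Injective ψ :=
    IsLocalization.map_injective_of_injective' S A (f := RingHom.id A) (Rₘ := B) K (N := nonZeroDivisors A) hS
      (by simp) Function.injective_id
  have h1 : IsIntegral A (ψ t) := by
    apply IsIntegral.of_pow hh
    rw [← map_pow, ht, hψ]
    exact isIntegral_algebraMap
  obtain ⟨t₀, ht₀⟩ := IsIntegrallyClosed.isIntegral_iff.mp h1
  exact ⟨t₀, hψinj (by rw [hψ, ht₀])⟩

variable {M : X.Modules} (h : ℕ) (F : Γ(X, ⊤)) (E : Γ(CohB1.tensorPow M h, ⊤))
  (e₀ : Γ(M, X.basicOpen F)) (c : ℕ)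

/-- Local form of the section `e₀`. -/
theorem exists_local [IsIntegral X]
    (hn : ∀ V : X.Opens, IsAffineOpen V → Nonempty V → IsIntegrallyClosed Γ(X, V))
    (hM : PicF.IsInvertible M) (hh : 0 < h) (hE : IsGen E)
    (hpow : pow e₀ h = ores (V := X.basicOpen F) le_top F ^ c • res (CohB1.tensorPow M h) le_top E)
    (hF : F ≠ 0) (x : X) :
    ∃ (V : X.Opens) (e : Γ(M, V)) (t v : Γ(X, V)), x ∈ V ∧ IsAffineOpen V ∧ IsGen e ∧ IsUnit v ∧
      t ^ h = ores (V := V) le_top F ^ c * v ∧
      ∀ (W : X.Opens) (hW : W ≤ V) (hW' : W ≤ X.basicOpen F),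
        res M hW' e₀ = ores hW t • res M hW e := by
  obtain ⟨V, e, hx, hV, he⟩ := exists_affine_gen hM x
  have hVne : Nonempty V := ⟨⟨x, hx⟩⟩
  have hic := hn V hV hVne
  obtain ⟨v, hv, hev⟩ := (he.pow h).exists_unit (e' := res (CohB1.tensorPow M h) le_top E) (hE.res _)
  let FV : Γ(X, V) := ores (V := V) le_top F
  have hFV : FV ≠ 0 := by
    intro h0
    apply hF
    apply ores_injective (V := ⊤) (W := V) le_top ⟨x, hx⟩
    rw [map_zero]; exact h0
  have hB : X.basicOpen FV = V ⊓ X.basicOpen F := Scheme.basicOpen_res X F (homOfLE (le_top : V ≤ ⊤)).op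
  have hBV : X.basicOpen FV ≤ V := X.basicOpen_le FV
  have hBU : X.basicOpen FV ≤ X.basicOpen F := hB.le.trans inf_le_right
  have hloc : IsLocalization.Away FV Γ(X, X.basicOpen FV) := hV.isLocalization_basicOpen FV
  obtain ⟨t, ht⟩ := (he.res hBV).exists_eq (res M hBU e₀)
  have hFu : IsUnit (ores hBV FV) := IsLocalization.Away.algebraMap_isUnit (S := Γ(X, X.basicOpen FV)) FV
  have h1 : t ^ h = ores hBV (FV ^ c * v) := by
    apply ((he.pow h).res hBV).ext
    rw [res_pow, ← smul_pow, ← ht, ← res_pow, hpow, res_smul, res_res, ← res_pow, map_mul, mul_smul, ← res_smul,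
      ← hev, res_res, map_pow, map_pow, ores_ores, ores_ores]
  obtain ⟨t₀, ht₀⟩ := exists_of_pow (A := Γ(X, V)) (B := Γ(X, X.basicOpen FV)) (Submonoid.powers FV)
    (powers_le_nonZeroDivisors_of_noZeroDivisors hFV) hh h1
  have ht₀' : ores hBV t₀ = t := ht₀
  have hBne : (X.basicOpen FV : Set X).Nonempty := by
    rw [Set.nonempty_iff_ne_empty]
    intro h0
    apply hFV
    apply (basicOpen_eq_bot_iff FV).mp
    ext1
    exact h0
  refine ⟨V, e, t₀, v, hx, hV, he, hv, ?_, ?_⟩
  · apply ores_injective hBV hBne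
    rw [map_pow, ht₀', h1]
  · intro W hW hW'
    have hWB : W ≤ X.basicOpen FV := by rw [hB]; exact le_inf hW hW'
    have := congrArg (res M hWB) ht
    rw [res_smul, res_res, res_res, ← ht₀', ores_ores] at this
    exact this

/-- The exponent times the order of `F` at any point is divisible by `h`. -/
theorem dvd_mul_ord [IsIntegral X]
    (hn : ∀ V : X.Opens, IsAffineOpen V → Nonempty V → IsIntegrallyClosed Γ(X, V))
    (hM : PicF.IsInvertible M) (hh : 0 < h) (hE : IsGen E)
    (hpow : pow e₀ h = ores (V := X.basicOpen F) le_top F ^ c • res (CohB1.tensorPow M h) le_top E)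
    (hF : F ≠ 0) (x : X) :
    h ∣ c * (Ring.ord (X.presheaf.stalk x) ((X.presheaf.germ ⊤ x trivial).hom F)).toNat := by
  obtain ⟨V, e, t, v, hx, hV, he, hv, htv, -⟩ := exists_local h F E e₀ c hn hM hh hE hpow hF x
  have hgi : Function.Injective (X.presheaf.germ V x hx).hom := germ_injective_of_isIntegral X x hx
  have hFV : (X.presheaf.germ V x hx).hom (ores (V := V) le_top F) = (X.presheaf.germ ⊤ x trivial).hom F :=
    TopCat.Presheaf.germ_res_apply X.presheaf (homOfLE (le_top : V ≤ ⊤)) x hx F
  have hgi' : Function.Injective (X.presheaf.germ ⊤ x trivial).hom := germ_injective_of_isIntegral X (U := ⊤) x trivial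
  set Fx := (X.presheaf.germ ⊤ x trivial).hom F with hFx
  have hFx0 : Fx ≠ 0 := by
    intro h0
    apply hF
    apply hgi'
    rw [map_zero]; exact h0
  have h1 := congrArg (X.presheaf.germ V x hx).hom htv
  rw [map_pow, map_mul, map_pow, hFV] at h1
  have hvx : IsUnit ((X.presheaf.germ V x hx).hom v) := hv.map _
  set tx := (X.presheaf.germ V x hx).hom t
  set vx := (X.presheaf.germ V x hx).hom v
  have htx0 : tx ≠ 0 := by
    intro h0
    rw [h0, zero_pow hh.ne'] at h1
    exact (mul_ne_zero (pow_ne_zero c hFx0) hvx.ne_zero) h1.symm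
  have h2 := congrArg (Ring.ord (X.presheaf.stalk x)) h1
  rw [Ring.ord_pow (mem_nonZeroDivisors_of_ne_zero htx0), Ring.ord_mul_of_isUnit_right hvx,
    Ring.ord_pow (mem_nonZeroDivisors_of_ne_zero hFx0)] at h2
  generalize Ring.ord (X.presheaf.stalk x) Fx = m at h2 ⊢
  generalize Ring.ord (X.presheaf.stalk x) tx = k at h2
  induction m using ENat.recTopCoe with
  | top => simp
  | coe m =>
    induction k using ENat.recTopCoe with
    | top =>
      exfalso
      rw [nsmul_eq_mul, nsmul_eq_mul, ENat.mul_top (by exact_mod_cast hh.ne')] at h2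
      exact absurd h2.symm (by exact_mod_cast ENat.natCast_ne_top (c * m))
    | coe k =>
      rw [nsmul_eq_mul, nsmul_eq_mul] at h2
      have h3 : h * k = c * m := by exact_mod_cast h2
      exact ⟨k, by simp [h3]⟩

/-- Main criterion: if the exponent is divisible by `h` then `M` is trivial. -/
theorem nonempty_iso [IsIntegral X]
    (hn : ∀ V : X.Opens, IsAffineOpen V → Nonempty V → IsIntegrallyClosed Γ(X, V))
    (hM : PicF.IsInvertible M) (hh : 0 < h) (hE : IsGen E)
    (hpow : pow e₀ h = ores (V := X.basicOpen F) le_top F ^ c • res (CohB1.tensorPow M h) le_top E)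
    (hF : F ≠ 0) (hc : h ∣ c) : Nonempty (M ≅ Coh.structureModule X) := by
  obtain ⟨b, rfl⟩ := hc
  have key : ∀ x : X, ∃ (V : X.Opens) (e : Γ(M, V)), x ∈ V ∧ IsGen e ∧
      ∀ (W : X.Opens) (hW : W ≤ V) (hW' : W ≤ X.basicOpen F),
        res M hW' e₀ = ores (V := W) le_top F ^ b • res M hW e := by
    intro x
    obtain ⟨V, e, t, v, hx, hV, he, hv, htv, hres⟩ :=
      exists_local h F E e₀ (h * b) hn hM hh hE hpow hF x
    have hVne : Nonempty V := ⟨⟨x, hx⟩⟩
    have hic := hn V hV hVne
    obtain ⟨s, hs⟩ : ores (V := V) le_top F ^ b ∣ t := by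
      rw [← IsIntegrallyClosed.pow_dvd_pow_iff hh.ne', htv, ← pow_mul, mul_comm b h]
      exact dvd_mul_right _ _
    have hFV : ores (V := V) le_top F ≠ 0 := by
      intro h0
      apply hF
      apply ores_injective (V := ⊤) (W := V) le_top ⟨x, hx⟩
      rw [map_zero]; exact h0
    have hsu : IsUnit s := by
      have h1 : s ^ h = v := by
        rw [hs, mul_pow, ← pow_mul, mul_comm b h] at htv
        exact mul_left_cancel₀ (pow_ne_zero _ hFV) htv
      exact (isUnit_pow_iff hh.ne').mp (h1 ▸ hv)
    refine ⟨V, s • e, hx, he.unit_smul hsu, fun W hW hW' => ?_⟩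
    rw [hres W hW hW', res_smul, smul_smul, hs, map_mul, map_pow, ores_ores]
  choose V e hxV he hres using key
  have hcov : (⊤ : X.Opens) ≤ ⨆ x, V x := fun x _ => Opens.mem_iSup.mpr ⟨x, hxV x⟩
  obtain ⟨s, hs⟩ := res_glue M V (fun _ => le_top) hcov e (by
    intro x y
    by_cases hne : ((V x ⊓ V y : X.Opens) : Set X).Nonempty
    · obtain ⟨a, ha⟩ := ((he y).res (inf_le_right : V x ⊓ V y ≤ V y)).exists_eq
        (res M (inf_le_left : V x ⊓ V y ≤ V x) (e x))
      have hne' : ((V x ⊓ V y ⊓ X.basicOpen F : X.Opens) : Set X).Nonempty := by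
        apply nonempty_preirreducible_inter (V x ⊓ V y).isOpen (X.basicOpen F).isOpen hne
        rw [Set.nonempty_iff_ne_empty]
        intro h0
        apply hF
        apply (basicOpen_eq_bot_iff F).mp
        ext1
        exact h0
      have h1 := hres x (V x ⊓ V y ⊓ X.basicOpen F) (inf_le_left.trans inf_le_left) inf_le_right
      have h2 := hres y (V x ⊓ V y ⊓ X.basicOpen F) (inf_le_left.trans inf_le_right) inf_le_right
      have h3 := congrArg (res M (inf_le_left : V x ⊓ V y ⊓ X.basicOpen F ≤ V x ⊓ V y)) ha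
      rw [res_smul, res_res, res_res] at h3
      rw [h1, h3, smul_smul] at h2
      have h4 := ((he y).res (inf_le_left.trans inf_le_right : V x ⊓ V y ⊓ X.basicOpen F ≤ V y)).ext h2
      have hFW : ores (V := V x ⊓ V y ⊓ X.basicOpen F) le_top F ≠ 0 := by
        intro h0
        apply hF
        apply ores_injective (V := ⊤) (W := V x ⊓ V y ⊓ X.basicOpen F) le_top hne'
        rw [map_zero]; exact h0
      have : Nonempty (V x ⊓ V y ⊓ X.basicOpen F : X.Opens) := ⟨⟨_, hne'.some_mem⟩⟩
      have h5 : ores (inf_le_left : V x ⊓ V y ⊓ X.basicOpen F ≤ V x ⊓ V y) a = 1 :=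
        mul_left_cancel₀ (pow_ne_zero b hFW) (by rw [h4, mul_one])
      have h6 : a = 1 := ores_injective _ hne' (by rw [h5, map_one])
      rw [ha, h6, one_smul]
    · have h0 : V x ⊓ V y = ⊥ := by
        ext1
        exact Set.not_nonempty_iff_eq_empty.mp hne
      have hsub : Subsingleton Γ(M, V x ⊓ V y) := by
        refine ⟨fun a b => res_ext M (ι := PEmpty.{1}) (V := V x ⊓ V y) (fun i => i.elim) (fun i => i.elim) ?_
          (fun i => i.elim)⟩
        rw [h0]; exact bot_le
      exact Subsingleton.elim _ _)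
  have hgen : IsGen s := IsGen.of_cover V (fun _ => le_top) hcov (fun x => by rw [hs]; exact he x)
  have : IsIso (homOf s) := by
    rw [isIso_iff_isGen, sec_homOf]
    simpa using hgen
  exact ⟨(asIso (homOf s)).symm⟩

end Groth.Agent.Models.H64.TorsPic
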